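import Mathlib

/-!
# S3509, alternating groups, imprimitive subgroups: counting permutations (helper237)

`N P` : the number of permutations `s` of `α` with `P s`.
-/

set_option autoImplicit false

namespace Cfsg.Agent.H237.RR

open Equiv
open scoped Nat

variable {α : Type*} [Fintype α] [DecidableEq α]

open Classical in
/-- number of permutations with a property -/
noncomputable def N (P : Perm α → Prop) : ℕ := (Finset.univ.filter P).card

theorem N_mono {P Q : Perm α → Prop} (h : ∀ s, P s → Q s) : N P ≤ N Q := by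
  classical
  exact Finset.card_le_card (fun s hs => by simpa using h s (by simpa using hs))

theorem N_or {P Q R : Perm α → Prop} (h : ∀ s, P s → Q s ∨ R s) : N P ≤ N Q + N R := by
  classical
  refine (Finset.card_le_card ?_).trans (Finset.card_union_le _ _)
  intro s hs
  rw [Finset.mem_union, Finset.mem_filter, Finset.mem_filter]
  rw [Finset.mem_filter] at hs
  rcases h s hs.2 with h1 | h1
  · exact Or.inl ⟨Finset.mem_univ _, h1⟩
  · exact Or.inr ⟨Finset.mem_univ _, h1⟩

theorem N_false {P : Perm α → Prop} (h : ∀ s, ¬ P s) : N P = 0 := by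
  classical
  rw [N, Finset.card_eq_zero, Finset.filter_eq_empty_iff]
  exact fun s _ => h s

/-- union bound -/
theorem exists_good {ι : Type*} (S : Finset ι) (P : ι → Perm α → Prop)
    (h : ∑ i ∈ S, N (P i) < (Fintype.card α)!) : ∃ s, ∀ i ∈ S, ¬ P i s := by
  classical
  by_contra hcon
  push Not at hcon
  have h1 : (Finset.univ : Finset (Perm α)) ⊆ S.biUnion fun i => Finset.univ.filter (P i) := by
    intro s _
    obtain ⟨i, hi, hs⟩ := hcon s
    rw [Finset.mem_biUnion]
    exact ⟨i, hi, Finset.mem_filter.2 ⟨Finset.mem_univ _, hs⟩⟩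
  have h2 := (Finset.card_le_card h1).trans Finset.card_biUnion_le
  rw [Finset.card_univ, Fintype.card_perm] at h2
  exact absurd (lt_of_le_of_lt h2 h) (lt_irrefl _)

/-- equidistribution of the images of a tuple -/
theorem exists_c {k : ℕ} (v : Fin k ↪ α) : ∃ c : ℕ, (Fintype.card α)! = (Fintype.card α).descFactorial k * c ∧
    ∀ (P : (Fin k → α) → Prop) (A : Finset (Fin k ↪ α)), (∀ w : Fin k ↪ α, P w → w ∈ A) →
      N (fun s => P (fun i => s (v i))) ≤ A.card * c := by
  classical
  have hT : MulAction.IsPretransitive (Perm α) (Fin k ↪ α) := Equiv.Perm.isMultiplyPretransitive α k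
  refine ⟨(Finset.univ.filter fun s : Perm α => s • v = v).card, ?_, ?_⟩
  all_goals
    have hfib : ∀ w : Fin k ↪ α, (Finset.univ.filter fun s : Perm α => s • v = w).card =
        (Finset.univ.filter fun s : Perm α => s • v = v).card := by
      intro w
      obtain ⟨t, ht⟩ := MulAction.exists_smul_eq (Perm α) v w
      refine Finset.card_bij (fun s _ => t⁻¹ * s) ?_ ?_ ?_
      · intro s hs
        rw [Finset.mem_filter] at hs ⊢
        refine ⟨Finset.mem_univ _, ?_⟩
        rw [mul_smul, hs.2, ← ht, inv_smul_smul]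
      · intro s _ s' _ h
        exact mul_left_cancel h
      · intro s hs
        rw [Finset.mem_filter] at hs
        refine ⟨t * s, ?_, by rw [inv_mul_cancel_left]⟩
        rw [Finset.mem_filter]
        refine ⟨Finset.mem_univ _, ?_⟩
        rw [mul_smul, hs.2, ht]
  · have h1 : (Finset.univ : Finset (Perm α)).card =
        ∑ w ∈ (Finset.univ : Finset (Fin k ↪ α)), (Finset.univ.filter fun s : Perm α => s • v = w).card :=
      Finset.card_eq_sum_card_fiberwise fun s _ => Finset.mem_univ _
    rw [Finset.sum_congr rfl (fun w _ => hfib w), Finset.sum_const, Finset.card_univ, Finset.card_univ,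
      Fintype.card_perm, Fintype.card_embedding_eq, Fintype.card_fin, smul_eq_mul] at h1
    exact h1
  · intro P A hA
    have h1 : (Finset.univ.filter fun s : Perm α => P (fun i => s (v i))).card =
        ∑ w ∈ A, ((Finset.univ.filter fun s : Perm α => P (fun i => s (v i))).filter fun s => s • v = w).card := by
      refine Finset.card_eq_sum_card_fiberwise fun s hs => ?_
      exact hA (s • v) (Finset.mem_filter.1 hs).2
    have h2 : ∀ w ∈ A, ((Finset.univ.filter fun s : Perm α => P (fun i => s (v i))).filter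
        fun s => s • v = w).card ≤ (Finset.univ.filter fun s : Perm α => s • v = v).card := by
      intro w _
      rw [← hfib w]
      exact Finset.card_le_card fun s hs => by
        rw [Finset.mem_filter] at hs ⊢
        exact ⟨Finset.mem_univ _, hs.2⟩
    have h3 := Finset.sum_le_sum h2
    rw [Finset.sum_const, smul_eq_mul] at h3
    have h4 : N (fun s => P (fun i => s (v i))) =
      (Finset.univ.filter fun s : Perm α => P (fun i => s (v i))).card := by
      unfold N
      congr
    rw [h4, h1]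
    exact h3

theorem pow_mul_desc (b a k : ℕ) : b ^ k * a.descFactorial k ≤ (b * a).descFactorial k := by
  induction k with
  | zero => simp
  | succ k ih =>
    rw [Nat.descFactorial_succ, Nat.descFactorial_succ]
    have h1 : b * (a - k) ≤ b * a - k := by
      rcases Nat.eq_zero_or_pos b with h0 | h0
      · rw [h0]; simp
      rcases Nat.lt_or_ge a k with h2 | h2
      · rw [Nat.sub_eq_zero_of_le h2.le]; simp
      · rw [Nat.mul_sub]
        have : k ≤ b * k := Nat.le_mul_of_pos_left k h0
        omega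
    calc b ^ (k + 1) * ((a - k) * a.descFactorial k) = (b * (a - k)) * (b ^ k * a.descFactorial k) := by ring
      _ ≤ (b * a - k) * (b * a).descFactorial k := Nat.mul_le_mul h1 ih

section col

variable {a b : ℕ} (e : α ≃ Fin b × Fin a)

/-- all `k` points get the same colour -/
theorem N_same {k : ℕ} (hk : k ≠ 0) {v : Fin k → α} (hv : Function.Injective v) :
    N (fun s : Perm α => ∀ i j, (e (s (v i))).1 = (e (s (v j))).1) * b ^ k ≤ b * (Fintype.card α)! := by
  classical
  obtain ⟨c, hc, hN⟩ := exists_c (⟨v, hv⟩ : Fin k ↪ α)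
  have h0 : 0 < k := Nat.pos_of_ne_zero hk
  have h1 := hN (fun w => ∀ i j, (e (w i)).1 = (e (w j)).1)
    (Finset.univ.filter fun w : Fin k ↪ α => ∀ i j, (e (w i)).1 = (e (w j)).1)
    (fun w hw => Finset.mem_filter.2 ⟨Finset.mem_univ _, hw⟩)
  have h2 : (Finset.univ.filter fun w : Fin k ↪ α => ∀ i j, (e (w i)).1 = (e (w j)).1).card ≤
      b * a.descFactorial k := by
    have h3 : Fintype.card (Fin b × (Fin k ↪ Fin a)) = b * a.descFactorial k := by
      rw [Fintype.card_prod, Fintype.card_fin, Fintype.card_embedding_eq, Fintype.card_fin, Fintype.card_fin]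
    rw [← h3, ← Fintype.card_coe]
    refine Fintype.card_le_of_injective
      (fun w : {w // w ∈ Finset.univ.filter fun w : Fin k ↪ α => ∀ i j, (e (w i)).1 = (e (w j)).1} =>
        ((e (w.1 ⟨0, h0⟩)).1, (⟨fun i => (e (w.1 i)).2, fun i j hij => by
          have h4 := (Finset.mem_filter.1 w.2).2 i j
          exact w.1.injective (e.injective (Prod.ext h4 hij))⟩ : Fin k ↪ Fin a))) ?_
    intro w w' h
    rw [Prod.mk.injEq] at h
    obtain ⟨h5, h6⟩ := h
    apply Subtype.ext
    ext i
    apply e.injective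
    refine Prod.ext ?_ ?_
    · rw [(Finset.mem_filter.1 w.2).2 i ⟨0, h0⟩, (Finset.mem_filter.1 w'.2).2 i ⟨0, h0⟩]
      exact h5
    · exact DFunLike.congr_fun h6 i
  have hn : Fintype.card α = b * a := by
    rw [Fintype.card_congr e, Fintype.card_prod, Fintype.card_fin, Fintype.card_fin]
  calc _ ≤ (b * a.descFactorial k * c) * b ^ k := Nat.mul_le_mul_right _ (h1.trans (Nat.mul_le_mul_right _ h2))
    _ = b * ((b ^ k * a.descFactorial k) * c) := by ring
    _ ≤ b * ((b * a).descFactorial k * c) := Nat.mul_le_mul_left _ (Nat.mul_le_mul_right _ (pow_mul_desc b a k))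
    _ = b * (Fintype.card α)! := by rw [hc, hn]

/-- `y0 ~ y1`, `y2 ~ y3`, `y0 ≁ y2` -/
theorem N_two {y0 y1 y2 y3 : α} (h01 : y0 ≠ y1) (h02 : y0 ≠ y2) (h03 : y0 ≠ y3) (h12 : y1 ≠ y2) (h13 : y1 ≠ y3)
    (h23 : y2 ≠ y3) :
    N (fun s : Perm α => (e (s y0)).1 = (e (s y1)).1 ∧ (e (s y2)).1 = (e (s y3)).1 ∧ (e (s y0)).1 ≠ (e (s y2)).1) *
      (Fintype.card α).descFactorial 4 ≤ (b * b - b) * ((a * a - a) * (a * a - a)) * (Fintype.card α)! := by
  classical
  have hv : Function.Injective ![y0, y1, y2, y3] := by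
    intro i j hij
    fin_cases i <;> fin_cases j <;> simp_all
  obtain ⟨c, hc, hN⟩ := exists_c (⟨![y0, y1, y2, y3], hv⟩ : Fin 4 ↪ α)
  have h1 := hN (fun w => (e (w 0)).1 = (e (w 1)).1 ∧ (e (w 2)).1 = (e (w 3)).1 ∧ (e (w 0)).1 ≠ (e (w 2)).1)
    (Finset.univ.filter fun w : Fin 4 ↪ α =>
      (e (w 0)).1 = (e (w 1)).1 ∧ (e (w 2)).1 = (e (w 3)).1 ∧ (e (w 0)).1 ≠ (e (w 2)).1)
    (fun w hw => Finset.mem_filter.2 ⟨Finset.mem_univ _, hw⟩)
  have h2 : (Finset.univ.filter fun w : Fin 4 ↪ α =>
      (e (w 0)).1 = (e (w 1)).1 ∧ (e (w 2)).1 = (e (w 3)).1 ∧ (e (w 0)).1 ≠ (e (w 2)).1).card ≤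
      (b * b - b) * ((a * a - a) * (a * a - a)) := by
    have h3 : ((Finset.univ : Finset (Fin b)).offDiag ×ˢ ((Finset.univ : Finset (Fin a)).offDiag ×ˢ
        (Finset.univ : Finset (Fin a)).offDiag)).card = (b * b - b) * ((a * a - a) * (a * a - a)) := by
      rw [Finset.card_product, Finset.card_product, Finset.offDiag_card, Finset.offDiag_card, Finset.card_univ,
        Finset.card_univ, Fintype.card_fin, Fintype.card_fin]
    rw [← h3]
    refine Finset.card_le_card_of_injOn (fun w => (((e (w 0)).1, (e (w 2)).1),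
      (((e (w 0)).2, (e (w 1)).2), ((e (w 2)).2, (e (w 3)).2)))) ?_ ?_
    · intro w hw
      rw [Finset.mem_coe, Finset.mem_filter] at hw
      obtain ⟨-, h4, h5, h6⟩ := hw
      rw [Finset.mem_coe, Finset.mem_product, Finset.mem_product, Finset.mem_offDiag, Finset.mem_offDiag,
        Finset.mem_offDiag]
      refine ⟨⟨Finset.mem_univ _, Finset.mem_univ _, h6⟩, ⟨Finset.mem_univ _, Finset.mem_univ _, ?_⟩,
        ⟨Finset.mem_univ _, Finset.mem_univ _, ?_⟩⟩
      · intro h7
        exact absurd (w.injective (e.injective (Prod.ext h4 h7))) (by decide)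
      · intro h7
        exact absurd (w.injective (e.injective (Prod.ext h5 h7))) (by decide)
    · intro w hw w' hw' h
      rw [Finset.mem_coe, Finset.mem_filter] at hw hw'
      simp only [Prod.mk.injEq] at h
      obtain ⟨⟨k1, k2⟩, ⟨k3, k4⟩, k5, k6⟩ := h
      ext i
      apply e.injective
      fin_cases i
      · exact Prod.ext k1 k3
      · exact Prod.ext (hw.2.1.symm.trans (k1.trans hw'.2.1)) k4
      · exact Prod.ext k2 k5
      · exact Prod.ext (hw.2.2.1.symm.trans (k2.trans hw'.2.2.1)) k6
  have h5 : N (fun s : Perm α => (e (s y0)).1 = (e (s y1)).1 ∧ (e (s y2)).1 = (e (s y3)).1 ∧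
      (e (s y0)).1 ≠ (e (s y2)).1) ≤ (b * b - b) * ((a * a - a) * (a * a - a)) * c :=
    h1.trans (Nat.mul_le_mul_right _ h2)
  calc _ ≤ (b * b - b) * ((a * a - a) * (a * a - a)) * c * (Fintype.card α).descFactorial 4 :=
        Nat.mul_le_mul_right _ h5
    _ = _ := by rw [hc]; ring

end col

end Cfsg.Agent.H237.RR
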